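import Cfsg.Agent.H462.Beta.Unit
import Cfsg.Agent.H899.Pt.Env

/-!
# T-side BETA for S3679 (helper462)

`x` an isometry of prime order `r`, `ord_r(q) = n`, `dim [V, x] = 2 n`, `dim V ≤ 2 n + 1`.

* `beta` : an isometry `z` of prime order `s` commuting with `x` is trivial if `ord_s(q)` does not divide `n`;
* `no_sq` : `n` even, `u` an odd prime divisor of `q ^ (n / 2) - 1`: no `C_u × C_u` commutes with `x`;
* `env_beta`, `env_no_sq` : the same in the projective group.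
-/

set_option autoImplicit false

namespace Cfsg.Agent.H462.Beta

open Module Polynomial Cfsg.Agent.H951 Cfsg.Agent.H884.Cg Cfsg.Agent.H899.Pt

section Lin

variable {F : Type*} [Field F] {V : Type*} [AddCommGroup V] [Module F V]

theorem fx_pow_of_not_dvd {y : Module.End F V} {r k : ℕ} (hr : r.Prime) (hy : y ^ r = 1) (hk : ¬ r ∣ k) :
    fx (y ^ k) ≤ fx y := by
  intro v hv
  rw [mem_fx] at hv ⊢
  have hco : Nat.Coprime k r := Nat.Coprime.symm ((hr.coprime_iff_not_dvd).2 hk)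
  obtain ⟨l, -, hl⟩ := Nat.exists_mul_mod_eq_one_of_coprime hco hr.one_lt
  have h1 : (y ^ k) ^ l = y := by
    rw [← pow_mul, ← Nat.div_add_mod (k * l) r, hl, pow_add, pow_mul, hy, one_pow, one_mul, pow_one]
  have h2 := pow_fx hv l
  rwa [h1] at h2

/-- `[V, w] ⊥ C_V(w)` -/
theorem cm_perp {w : Module.End F V} {B : LinearMap.BilinForm F V} (hB : ∀ u v, B (w u) (w v) = B u v) {a b : V}
    (ha : a ∈ fx w) (hb : b ∈ cm w) : B a b = 0 ∧ B b a = 0 := by
  obtain ⟨c, rfl⟩ := mem_cm.1 hb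
  have h1 := hB a c
  have h2 := hB c a
  rw [mem_fx.1 ha] at h1 h2
  constructor
  · rw [map_sub, h1, sub_self]
  · rw [map_sub, LinearMap.sub_apply, h2, sub_self]

/-- nondegeneracy of the commutator space -/
theorem nd_inf {w : Module.End F V} {B : LinearMap.BilinForm F V} {s : ℕ} (hs : (s : F) ≠ 0) (hw : w ^ s = 1)
    (hB : ∀ u v, B (w u) (w v) = B u v) {Z : Submodule F V} (hZ : Inv w Z)
    (hnd : ∀ u ∈ Z, u ≠ 0 → ∃ v ∈ Z, B u v ≠ 0) : ∀ u ∈ Z ⊓ cm w, u ≠ 0 → ∃ v ∈ Z ⊓ cm w, B u v ≠ 0 := by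
  rintro u hu hu0
  obtain ⟨v, hv, huv⟩ := hnd u hu.1 hu0
  rw [← inf_fx_sup_inf_cm hs hw hZ] at hv
  obtain ⟨a, ha, b, hb, rfl⟩ := Submodule.mem_sup.1 hv
  refine ⟨b, hb, ?_⟩
  rwa [map_add, (cm_perp hB ha.2 hu.2).2, zero_add] at huv

/-- a subspace of dimension at most one -/
theorem exists_smul_of_le_one [FiniteDimensional F V] {W : Submodule F V} (hW : finrank F W ≤ 1) {a b : V}
    (ha : a ∈ W) (hb : b ∈ W) (ha0 : a ≠ 0) : ∃ c : F, b = c • a := by
  have h1 : finrank F W = 1 := by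
    refine le_antisymm hW ?_
    rw [Nat.one_le_iff_ne_zero]
    intro h0
    have h2 := Submodule.finrank_eq_zero.1 h0
    rw [h2, Submodule.mem_bot] at ha
    exact ha0 ha
  obtain ⟨c, hc⟩ := (finrank_eq_one_iff_of_nonzero' (⟨a, ha⟩ : W) (fun h => ha0 (congrArg Subtype.val h))).1 h1 ⟨b, hb⟩
  exact ⟨c, (congrArg Subtype.val hc).symm⟩

end Lin

section Num

/-- orders of `q` with `q ^ j = - 1` -/
theorem ord_of_neg {q r n j : ℕ} (hr : 2 < r) (hn : orderOf (q : ZMod r) = n) (h : r ∣ q ^ j + 1) :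
    n ∣ 2 * j ∧ ¬ n ∣ j := by
  have h1 : (q : ZMod r) ^ j = -1 := by
    have h2 : ((q ^ j + 1 : ℕ) : ZMod r) = 0 := (ZMod.natCast_eq_zero_iff _ _).2 h
    push_cast at h2
    exact eq_neg_of_add_eq_zero_left h2
  rw [← hn, orderOf_dvd_iff_pow_eq_one, orderOf_dvd_iff_pow_eq_one]
  refine ⟨by rw [mul_comm, pow_mul, h1]; ring, ?_⟩
  intro h2
  rw [h2] at h1
  have h3 : ((2 : ℕ) : ZMod r) = 0 := by
    push_cast
    have : (1 : ZMod r) + 1 = 0 := by
      nth_rewrite 1 [h1]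
      ring
    rw [← this]
    norm_num
  have h4 := Nat.le_of_dvd (by norm_num) ((ZMod.natCast_eq_zero_iff _ _).1 h3)
  omega

theorem num_false {n e j : ℕ} (hn0 : 0 < n) (h1 : n ∣ 2 * j) (h2 : ¬ n ∣ j) (h3 : e ∣ 2 * j)
    (h5 : e ∣ 2 * n) (h6 : ¬ e ∣ n) : False := by
  obtain ⟨a, ha⟩ := h1
  obtain ⟨b, hb⟩ := h3
  obtain ⟨c, hc⟩ := h5
  have ha2 : Odd a := by
    rw [← Nat.not_even_iff_odd]
    rintro ⟨k, rfl⟩
    exact h2 ⟨k, by nlinarith⟩
  have hc2 : Odd c := by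
    rw [← Nat.not_even_iff_odd]
    rintro ⟨k, rfl⟩
    exact h6 ⟨k, by nlinarith⟩
  have he : 0 < e := by
    rcases Nat.eq_zero_or_pos e with h | h
    · rw [h, zero_mul] at hc
      omega
    · exact h
  have h7 : e * (c * a) = e * (2 * b) := by
    calc e * (c * a) = (e * c) * a := by ring
      _ = 2 * (n * a) := by rw [← hc]; ring
      _ = 2 * (e * b) := by rw [← ha, hb]
      _ = _ := by ring
  have h8 := Nat.eq_of_mul_eq_mul_left he h7
  have h9 : Odd (c * a) := hc2.mul ha2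
  rw [h8] at h9
  exact (Nat.not_even_iff_odd.2 h9) (even_two_mul b)

theorem zmod_two (a : ZMod 2) : a = 0 ∨ a = 1 := by
  revert a
  decide

theorem ne_two {F : Type*} [Field F] [Fintype F] {s n : ℕ} (hs : s.Prime) (hs0 : (s : F) ≠ 0)
    (hord : ¬ orderOf (Fintype.card F : ZMod s) ∣ n) : s ≠ 2 := by
  rintro rfl
  have := Fact.mk hs
  have h1 := ord_pos (F := F) hs0
  apply hord
  have h2 : ((Fintype.card F : ℕ) : ZMod 2) = 0 ∨ ((Fintype.card F : ℕ) : ZMod 2) = 1 := zmod_two _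
  rcases h2 with h2 | h2
  · rw [h2, orderOf_zero] at h1
    exact absurd h1 (lt_irrefl 0)
  · rw [h2, orderOf_one]
    exact one_dvd n

end Num

section Main

variable {F : Type*} [Field F] [Fintype F] {V : Type*} [AddCommGroup V] [Module F V] [FiniteDimensional F V]
  {x z : Module.End F V} {r n : ℕ}

theorem dim_fx (h : RD F r n) (hx : x ^ r = 1) (hxd : finrank F (cm x) = 2 * n) (hV : finrank F V ≤ 2 * n + 1) :
    finrank F (fx x) ≤ 1 := by
  have h1 := finrank_fx_add_cm h.ne0 hx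
  omega

/-- **BETA** -/
theorem beta (h : RD F r n) (hx : x ^ r = 1) (hxd : finrank F (cm x) = 2 * n) (hV : finrank F V ≤ 2 * n + 1)
    (B : LinearMap.BilinForm F V) (hnd : ∀ u, u ≠ 0 → ∃ v, B u v ≠ 0) (hBx : ∀ u v, B (x u) (x v) = B u v)
    (hBz : ∀ u v, B (z u) (z v) = B u v) (hxz : Commute x z) {s : ℕ} (hs : s.Prime) (hs0 : (s : F) ≠ 0)
    (hz : z ^ s = 1) (hord : ¬ orderOf (Fintype.card F : ZMod s) ∣ n) : z = 1 := by
  have hsf := Fact.mk hs
  have hn0 := h.pos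
  set e := orderOf (Fintype.card F : ZMod s) with he
  have he0 : 0 < e := ord_pos hs0
  have he1 : e ≠ 1 := fun h1 => hord (by rw [h1]; exact one_dvd n)
  have hUx : Inv x (cm x) := inv_cm
  have hUz : Inv z (cm x) := inv_cm_of_commute hxz.symm
  have hzx : Inv x (cm z) := inv_cm_of_commute hxz
  by_cases hZ : cm x ⊓ cm z = ⊥
  · refine LinearMap.ext fun v => ?_
    obtain ⟨a, ha, b, hb, rfl⟩ := Submodule.mem_sup.1
      (show v ∈ fx x ⊔ cm x by rw [(isCompl_fx_cm h.ne0 hx).sup_eq_top]; trivial)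
    have h1 : z b = b := by
      rw [← sub_eq_zero, ← Submodule.mem_bot F, ← hZ]
      exact ⟨(cm x).sub_mem (hUz b hb) hb, mem_cm.2 ⟨b, rfl⟩⟩
    have h2 : fx x ⊓ cm z = ⊥ := by
      have h3 : e ∣ finrank F ↥(fx x ⊓ cm z) :=
        ord_dvd_finrank hz ((inv_fx_of_commute hxz.symm).inf inv_cm) (inf_fx_of_le_cm hs0 hz inf_le_right)
      have h4 : finrank F ↥(fx x ⊓ cm z) ≤ 1 := (Submodule.finrank_mono inf_le_left).trans (dim_fx h hx hxd hV)
      apply Submodule.finrank_eq_zero.1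
      rcases Nat.eq_zero_or_pos (finrank F ↥(fx x ⊓ cm z)) with h5 | h5
      · exact h5
      · have := Nat.le_of_dvd h5 h3
        omega
    have h3 : z a = a := by
      rw [← sub_eq_zero, ← Submodule.mem_bot F, ← h2]
      exact ⟨(fx x).sub_mem (inv_fx_of_commute hxz.symm a ha) ha, mem_cm.2 ⟨a, rfl⟩⟩
    rw [map_add, h1, h3, Module.End.one_apply]
  exfalso
  -- dimensions of invariant subspaces
  have key : ∀ W : Submodule F V, W ≤ cm x → W ≤ cm z → Inv x W → Inv z W → W = ⊥ ∨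
      (finrank F W = 2 * n ∧ e ∣ 2 * n ∧ W = cm x) := by
    intro W h1 h2 h3 h4
    rcases eq_or_ne W ⊥ with h0 | h0
    · exact Or.inl h0
    right
    obtain ⟨k, hk⟩ := h.dvd hx h3 (inf_fx_of_le_cm h.ne0 hx h1)
    have h5 : e ∣ finrank F W := ord_dvd_finrank hz h4 (inf_fx_of_le_cm hs0 hz h2)
    have h6 := Submodule.finrank_mono h1
    rw [hxd] at h6
    have h7 : 0 < finrank F W := Nat.pos_of_ne_zero fun h => h0 (Submodule.finrank_eq_zero.1 h)
    have h8 : k < 3 := by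
      by_contra hcon
      have := Nat.mul_le_mul_left n (show 3 ≤ k by omega)
      omega
    have h9 : k ≠ 0 := by
      rintro rfl
      omega
    have h10 : k ≠ 1 := by
      rintro rfl
      rw [mul_one] at hk
      exact hord (hk ▸ h5)
    have h11 : k = 2 := by omega
    subst h11
    have h12 : finrank F W = 2 * n := by omega
    exact ⟨h12, h12 ▸ h5, Submodule.eq_of_le_of_finrank_le h1 (by omega)⟩
  obtain ⟨-, he2, hUz'⟩ := (key (cm x ⊓ cm z) inf_le_left inf_le_right (hUx.inf hzx) (hUz.inf inv_cm)).resolve_left hZ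
  have hle : cm x ≤ cm z := by rw [← hUz']; exact inf_le_right
  have hU0 : cm x ≠ ⊥ := by
    intro h0
    rw [h0, finrank_bot] at hxd
    omega
  have hrs : r ≠ s := by
    rintro rfl
    exact hord (by rw [he, h.ord])
  have hcop : Nat.Coprime r s := (Nat.coprime_primes h.prime hs).2 hrs
  set y := x * z with hy
  have hyk : ∀ k, y ^ k = x ^ k * z ^ k := fun k => hxz.mul_pow k
  have hyx : ∃ k, y ^ k = x := by
    obtain ⟨l, -, hl⟩ := Nat.exists_mul_mod_eq_one_of_coprime hcop.symm h.prime.one_lt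
    refine ⟨s * l, ?_⟩
    rw [hyk, pow_mul z, hz, one_pow, mul_one, ← Nat.div_add_mod (s * l) r, hl, pow_add, pow_mul, hx, one_pow, one_mul,
      pow_one]
  have hyz : ∃ k, y ^ k = z := by
    obtain ⟨l, -, hl⟩ := Nat.exists_mul_mod_eq_one_of_coprime hcop hs.one_lt
    refine ⟨r * l, ?_⟩
    rw [hyk, pow_mul x, hx, one_pow, one_mul, ← Nat.div_add_mod (r * l) s, hl, pow_add, pow_mul, hz, one_pow, one_mul,
      pow_one]
  have hirr : Irr y (cm x) := by
    refine ⟨hU0, Inv.mul hUx hUz, fun W hW hWy => ?_⟩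
    obtain ⟨k, hk⟩ := hyx
    obtain ⟨l, hl⟩ := hyz
    have h1 : Inv x W := by rw [← hk]; exact hWy.pow k
    have h2 : Inv z W := by rw [← hl]; exact hWy.pow l
    rcases key W hW (hW.trans hle) h1 h2 with h3 | ⟨-, -, h3⟩
    · exact Or.inl h3
    · exact Or.inr h3
  have hndU : ∀ u ∈ cm x, u ≠ 0 → ∃ v ∈ cm x, B u v ≠ 0 := by
    have h1 := nd_inf h.ne0 hx hBx (Z := ⊤) inv_top (fun u _ hu => by
      obtain ⟨v, hv⟩ := hnd u hu
      exact ⟨v, trivial, hv⟩)
    rwa [top_inf_eq] at h1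
  have hyB : ∀ u v, B (y u) (y v) = B u v := fun u v => by
    rw [hy, Module.End.mul_apply, Module.End.mul_apply, hBx, hBz]
  obtain ⟨j, hj⟩ := unit B hndU (m := r * s) (Nat.mul_pos h.prime.pos hs.pos)
    (by rw [hyk, pow_mul, hx, one_pow, one_mul, mul_comm, pow_mul, hz, one_pow]) hyB hirr
  have h1 : r ∣ Fintype.card F ^ j + 1 := by
    by_contra hcon
    apply hU0
    rw [eq_bot_iff, ← (isCompl_fx_cm h.ne0 hx).inf_eq_bot]
    intro v hv
    exact ⟨fx_pow_of_not_dvd h.prime hx hcon (mem_fx.2 (hj x hUx ((Commute.refl x).mul_right hxz) hBx v hv)), hv⟩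
  have h2 : s ∣ Fintype.card F ^ j + 1 := by
    by_contra hcon
    apply hU0
    rw [eq_bot_iff, ← (isCompl_fx_cm hs0 hz).inf_eq_bot]
    intro v hv
    exact ⟨fx_pow_of_not_dvd hs hz hcon (mem_fx.2 (hj z hUz (hxz.symm.mul_right (Commute.refl z)) hBz v hv)), hle hv⟩
  have hs2 : 2 < s := lt_of_le_of_ne hs.two_le (ne_two hs hs0 hord).symm
  obtain ⟨h3, h4⟩ := ord_of_neg h.two_lt h.ord h1
  obtain ⟨h5, -⟩ := ord_of_neg hs2 he.symm h2
  exact num_false hn0 h3 h4 h5 he2 hord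

/-- an isometry of order `u` commuting with `x` and fixing a nonzero vector of `[V, x]` -/
theorem eq_one_of_fix (h : RD F r n) (hx : x ^ r = 1) (hxd : finrank F (cm x) = 2 * n)
    (hV : finrank F V ≤ 2 * n + 1) (B : LinearMap.BilinForm F V) (hnd : ∀ u, u ≠ 0 → ∃ v, B u v ≠ 0)
    (hBx : ∀ u v, B (x u) (x v) = B u v) (hn : Even n) {u : ℕ} (hu : u.Prime) (hu2 : 2 < u) (hu0 : (u : F) ≠ 0)
    (hun : u ∣ Fintype.card F ^ (n / 2) - 1) {w : Module.End F V} (hw : w ^ u = 1) (hxw : Commute x w)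
    (hBw : ∀ u v, B (w u) (w v) = B u v) (hf : cm x ⊓ fx w ≠ ⊥) : w = 1 := by
  have huf := Fact.mk hu
  have hn0 := h.pos
  have hUx : Inv x (cm x) := inv_cm
  have hUw : Inv w (cm x) := inv_cm_of_commute hxw.symm
  have hwx : Inv x (cm w) := inv_cm_of_commute hxw
  have hndU : ∀ u ∈ cm x, u ≠ 0 → ∃ v ∈ cm x, B u v ≠ 0 := by
    have h1 := nd_inf h.ne0 hx hBx (Z := ⊤) inv_top (fun u _ hu => by
      obtain ⟨v, hv⟩ := hnd u hu
      exact ⟨v, trivial, hv⟩)
    rwa [top_inf_eq] at h1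
  have hZ : cm x ⊓ cm w = ⊥ := by
    by_contra hZ
    have h1 := finrank_inf_add hu0 hw hUw
    have h2 : 0 < finrank F ↥(cm x ⊓ fx w) := Nat.pos_of_ne_zero fun h => hf (Submodule.finrank_eq_zero.1 h)
    have key : ∀ W : Submodule F V, W ≤ cm x ⊓ cm w → Inv x W → W = ⊥ ∨ (finrank F W = n) := by
      intro W hW hWx
      rcases eq_or_ne W ⊥ with h0 | h0
      · exact Or.inl h0
      right
      obtain ⟨k, hk⟩ := h.dvd hx hWx (inf_fx_of_le_cm h.ne0 hx (hW.trans inf_le_left))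
      have h3 := Submodule.finrank_mono hW
      have h7 : 0 < finrank F W := Nat.pos_of_ne_zero fun h => h0 (Submodule.finrank_eq_zero.1 h)
      have h8 : k < 2 := by
        by_contra hcon
        have := Nat.mul_le_mul_left n (show 2 ≤ k by omega)
        omega
      have h9 : k ≠ 0 := by
        rintro rfl
        omega
      have h10 : k = 1 := by omega
      rw [hk, h10, mul_one]
    have hd := (key _ le_rfl (hUx.inf hwx)).resolve_left hZ
    have hirr : Irr x (cm x ⊓ cm w) := by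
      refine ⟨hZ, hUx.inf hwx, fun W hW hWx => ?_⟩
      rcases key W hW hWx with h3 | h3
      · exact Or.inl h3
      · exact Or.inr (Submodule.eq_of_le_of_finrank_le hW (by omega))
    obtain ⟨j, hj⟩ := unit B (nd_inf hu0 hw hBw hUw hndU) h.prime.pos hx hBx hirr
    have h3 : r ∣ Fintype.card F ^ j + 1 := by
      by_contra hcon
      apply hZ
      rw [eq_bot_iff, ← (isCompl_fx_cm h.ne0 hx).inf_eq_bot]
      intro v hv
      exact ⟨fx_pow_of_not_dvd h.prime hx hcon (mem_fx.2 (hj x (hUx.inf hwx) (Commute.refl x) hBx v hv)), hv.1⟩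
    have h4 : u ∣ Fintype.card F ^ j + 1 := by
      by_contra hcon
      apply hZ
      rw [eq_bot_iff, ← (isCompl_fx_cm hu0 hw).inf_eq_bot]
      intro v hv
      exact ⟨fx_pow_of_not_dvd hu hw hcon (mem_fx.2 (hj w (hUw.inf inv_cm) hxw.symm hBw v hv)), hv.2⟩
    obtain ⟨h5, -⟩ := ord_of_neg h.two_lt h.ord h3
    obtain ⟨m, hm⟩ := hn
    have hm' : n / 2 = m := by omega
    rw [hm'] at hun
    obtain ⟨a, ha⟩ : m ∣ j := by
      rw [hm, ← two_mul] at h5
      exact Nat.dvd_of_mul_dvd_mul_left (by norm_num) h5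
    have h6 : u ∣ Fintype.card F ^ j - 1 := by
      rw [ha, pow_mul]
      exact hun.trans (by simpa using Nat.sub_dvd_pow_sub_pow (Fintype.card F ^ m) 1 a)
    have h7 : 1 ≤ Fintype.card F ^ j := Nat.one_le_pow _ _ Fintype.card_pos
    have h8 : u ∣ 2 := by
      have h9 := Nat.dvd_sub h4 h6
      have h10 : Fintype.card F ^ j + 1 - (Fintype.card F ^ j - 1) = 2 := by omega
      rwa [h10] at h9
    have := Nat.le_of_dvd (by norm_num) h8
    omega
  refine LinearMap.ext fun v => ?_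
  obtain ⟨a, ha, b, hb, rfl⟩ := Submodule.mem_sup.1
    (show v ∈ fx x ⊔ cm x by rw [(isCompl_fx_cm h.ne0 hx).sup_eq_top]; trivial)
  have h1 : w b = b := by
    rw [← sub_eq_zero, ← Submodule.mem_bot F, ← hZ]
    exact ⟨(cm x).sub_mem (hUw b hb) hb, mem_cm.2 ⟨b, rfl⟩⟩
  have h3 : w a = a := by
    rcases eq_or_ne a 0 with rfl | ha0
    · exact map_zero w
    have hd := dim_fx h hx hxd hV
    obtain ⟨c, hc⟩ := exists_smul_of_le_one hd ha (inv_fx_of_commute hxw.symm a ha) ha0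
    -- `B a a ≠ 0`
    have haa : B a a ≠ 0 := by
      obtain ⟨v, hv⟩ := hnd a ha0
      obtain ⟨a', ha', b', hb', rfl⟩ := Submodule.mem_sup.1
        (show v ∈ fx x ⊔ cm x by rw [(isCompl_fx_cm h.ne0 hx).sup_eq_top]; trivial)
      rw [map_add, (cm_perp hBx ha hb').1, add_zero] at hv
      obtain ⟨d, rfl⟩ := exists_smul_of_le_one hd ha ha' ha0
      intro h0
      apply hv
      rw [map_smul, h0, smul_zero]
    have hcc : c * c = 1 := by
      have h4 := hBw a a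
      rw [hc, map_smul, map_smul, LinearMap.smul_apply, smul_eq_mul, smul_eq_mul, ← mul_assoc] at h4
      exact mul_right_cancel₀ haa (h4.trans (one_mul _).symm)
    have hcu : c ^ u = 1 := by
      have h4 : ∀ k : ℕ, (w ^ k) a = c ^ k • a := by
        intro k
        induction k with
        | zero => rw [pow_zero, pow_zero, one_smul]; rfl
        | succ k ih => rw [pow_succ, Module.End.mul_apply, hc, map_smul, ih, smul_smul, pow_succ, mul_comm]
      have h5 := h4 u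
      rw [hw, Module.End.one_apply] at h5
      have h6 : (c ^ u - 1) • a = 0 := by rw [sub_smul, one_smul, ← h5, sub_self]
      exact sub_eq_zero.1 ((smul_eq_zero.1 h6).resolve_right ha0)
    have hc1 : c = 1 := by
      obtain ⟨k, hk⟩ := hu.odd_of_ne_two (by omega)
      rw [hk, pow_succ, pow_mul, pow_two, hcc, one_pow, one_mul] at hcu
      exact hcu
    rw [hc, hc1, one_smul]
  rw [map_add, h1, h3, Module.End.one_apply]

theorem cast_ne_zero {n u : ℕ} (hn0 : 0 < n / 2) (hu : u.Prime) (hun : u ∣ Fintype.card F ^ (n / 2) - 1) :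
    (u : F) ≠ 0 := by
  intro h0
  obtain ⟨l, hl⟩ := CharP.exists F
  obtain ⟨k, hlp, hk⟩ := FiniteField.card F l
  have h1 : l ∣ u := (CharP.cast_eq_zero_iff F l u).1 h0
  have h2 := (Nat.prime_dvd_prime_iff_eq hlp hu).1 h1
  have h3 : u ∣ Fintype.card F ^ (n / 2) := by
    rw [hk, h2]
    exact dvd_pow (dvd_pow_self u k.2.ne') hn0.ne'
  have h4 : 1 ≤ Fintype.card F ^ (n / 2) := Nat.one_le_pow _ _ Fintype.card_pos
  have h5 := Nat.dvd_sub h3 hun
  have h6 : Fintype.card F ^ (n / 2) - (Fintype.card F ^ (n / 2) - 1) = 1 := by omega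
  rw [h6, Nat.dvd_one] at h5
  exact hu.one_lt.ne' h5

/-- **no `C_u × C_u`** -/
theorem no_sq (h : RD F r n) (hx : x ^ r = 1) (hxd : finrank F (cm x) = 2 * n)
    (hV : finrank F V ≤ 2 * n + 1) (B : LinearMap.BilinForm F V) (hnd : ∀ u, u ≠ 0 → ∃ v, B u v ≠ 0)
    (hBx : ∀ u v, B (x u) (x v) = B u v) (hn : Even n) {u : ℕ} (hu : u.Prime) (hu2 : 2 < u)
    (hun : u ∣ Fintype.card F ^ (n / 2) - 1) {w₁ w₂ : Module.End F V} (hw₁ : w₁ ^ u = 1) (hw₂ : w₂ ^ u = 1)
    (hxw₁ : Commute x w₁) (hxw₂ : Commute x w₂) (hww : Commute w₂ w₁)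
    (hBw₁ : ∀ u v, B (w₁ u) (w₁ v) = B u v) (hBw₂ : ∀ u v, B (w₂ u) (w₂ v) = B u v) (h1 : w₁ ≠ 1) :
    ∃ k : ℕ, w₂ = w₁ ^ k := by
  have hn0 := h.pos
  have hu0 : (u : F) ≠ 0 := cast_ne_zero (n := n) (by obtain ⟨m, rfl⟩ := hn; omega) hu hun
  have hf : cm x ⊓ fx w₁ = ⊥ := by
    by_contra hcon
    exact h1 (eq_one_of_fix h hx hxd hV B hnd hBx hn hu hu2 hu0 hun hw₁ hxw₁ hBw₁ hcon)
  have hU0 : cm x ≠ ⊥ := by
    intro h0
    rw [h0, finrank_bot] at hxd
    omega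
  obtain ⟨i, hi, hne⟩ := exists_fixed hu hu0 hw₂ hw₁ hww (inv_cm_of_commute hxw₂.symm) (inv_cm_of_commute hxw₁.symm)
    hU0 hf
  have hBp : ∀ k : ℕ, ∀ u v, B ((w₁ ^ k) u) ((w₁ ^ k) v) = B u v := by
    intro k
    induction k with
    | zero => intro u v; rfl
    | succ k ih =>
      intro u v
      rw [pow_succ', Module.End.mul_apply, Module.End.mul_apply, hBw₁, ih]
  have h2 : w₂ * w₁ ^ i = 1 := by
    refine eq_one_of_fix h hx hxd hV B hnd hBx hn hu hu2 hu0 hun ?_ (hxw₂.mul_right (hxw₁.pow_right i)) ?_ hne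
    · rw [(hww.pow_right i).mul_pow, hw₂, ← pow_mul, mul_comm i, pow_mul, hw₁, one_pow, one_mul]
    · intro a b
      rw [Module.End.mul_apply, Module.End.mul_apply, hBw₂, hBp]
  refine ⟨u - i, ?_⟩
  calc w₂ = w₂ * w₁ ^ (i + (u - i)) := by rw [show i + (u - i) = u by omega, hw₁, mul_one]
    _ = w₂ * w₁ ^ i * w₁ ^ (u - i) := by rw [pow_add, mul_assoc]
    _ = _ := by rw [h2, one_mul]

end Main

section Env

variable {T G : Type*} [Group T] [Group G] {F : Type*} [Field F] [Fintype F] {V : Type*} [AddCommGroup V] [Module F V]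
  [FiniteDimensional F V] {r n : ℕ} {π : G →* T} {ρ : G →* Module.End F V}

omit [FiniteDimensional F V] in
/-- lifts of elements of odd order -/
theorem lift_odd (h : Env r n π ρ) {s : ℕ} (hs : Odd s) {t : T} (ht : t ^ s = 1) : ∃ g, π g = t ∧ g ^ s = 1 := by
  obtain ⟨g, rfl⟩ := h.surj t
  obtain ⟨j, hj⟩ := hs
  refine ⟨g ^ (s + 1), by rw [map_pow, pow_succ, ht, one_mul], ?_⟩
  have h1 := (h.ker (g ^ s) (by rw [map_pow, ht])).1
  rw [← pow_mul, mul_comm, pow_mul, show s + 1 = 2 * (j + 1) by omega, pow_mul, h1, one_pow]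

/-- **BETA**, group form -/
theorem env_beta (h : Env r n π ρ) (B : LinearMap.BilinForm F V) (hnd : ∀ u, u ≠ 0 → ∃ v, B u v ≠ 0)
    (hB : ∀ g u v, B (ρ g u) (ρ g v) = B u v) {x : G} (hx : x ^ r = 1) (hxd : finrank F (cm (ρ x)) = 2 * n)
    {s : ℕ} (hs : s.Prime) (hs0 : (s : F) ≠ 0) (hord : ¬ orderOf (Fintype.card F : ZMod s) ∣ n) {t : T}
    (ht : t ^ s = 1) (hc : π x * t = t * π x) : t = 1 := by
  obtain ⟨g, rfl, hg⟩ := lift_odd h (hs.odd_of_ne_two (ne_two hs hs0 hord)) ht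
  have h1 : ρ g = 1 := beta h.rd (h.rpow hx) hxd h.dim B hnd (hB x) (hB g) (h.comm' hx hc) hs hs0
    (by rw [← map_pow, hg, map_one]) hord
  have h2 : g = 1 := h.inj (by rw [h1, map_one])
  rw [h2, map_one]

/-- **no `C_u × C_u`**, group form -/
theorem env_no_sq (h : Env r n π ρ) (B : LinearMap.BilinForm F V) (hnd : ∀ u, u ≠ 0 → ∃ v, B u v ≠ 0)
    (hB : ∀ g u v, B (ρ g u) (ρ g v) = B u v) {x : G} (hx : x ^ r = 1) (hxd : finrank F (cm (ρ x)) = 2 * n)
    (hn : Even n) {u : ℕ} (hu : u.Prime) (hu2 : 2 < u) (hun : u ∣ Fintype.card F ^ (n / 2) - 1) {t₁ t₂ : T}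
    (ht₁ : t₁ ^ u = 1) (ht₂ : t₂ ^ u = 1) (hc₁ : π x * t₁ = t₁ * π x) (hc₂ : π x * t₂ = t₂ * π x)
    (h12 : t₁ * t₂ = t₂ * t₁) (h1 : t₁ ≠ 1) : t₂ ∈ Subgroup.zpowers t₁ := by
  have hodd := hu.odd_of_ne_two (show u ≠ 2 by omega)
  obtain ⟨g₁, rfl, hg₁⟩ := lift_odd h hodd ht₁
  obtain ⟨g₂, rfl, hg₂⟩ := lift_odd h hodd ht₂
  have h2 : g₂ * g₁ = g₁ * g₂ := comm_lift hodd π h.ker hg₂ h12.symm
  obtain ⟨k, hk⟩ := no_sq h.rd (h.rpow hx) hxd h.dim B hnd (hB x) hn hu hu2 hun (w₁ := ρ g₁) (w₂ := ρ g₂)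
    (by rw [← map_pow, hg₁, map_one]) (by rw [← map_pow, hg₂, map_one]) (h.comm' hx hc₁) (h.comm' hx hc₂)
    (by
      show ρ g₂ * ρ g₁ = ρ g₁ * ρ g₂
      rw [← map_mul, h2, map_mul]) (hB g₁) (hB g₂)
    (fun h3 => h1 (by rw [h.inj (h3.trans (map_one ρ).symm), map_one]))
  rw [← map_pow] at hk
  rw [h.inj hk, map_pow]
  exact Subgroup.npow_mem_zpowers _ _

end Env

end Cfsg.Agent.H462.Beta
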