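import Cfsg.Agent.H899.Pt.Lin
import Cfsg.Agent.H946.DK.Plane

/-!
# Isometries commuting with an irreducible isometry (helper462, T-side BETA for S3679)

`unit` : `y` an isometry of finite order, irreducible on the nondegenerate space `Z`: there is `j` such that
`w ^ (q ^ j + 1)` is trivial on `Z` for each isometry `w` commuting with `y`.
-/

set_option autoImplicit false

namespace Cfsg.Agent.H462.Beta

open Module Polynomial Cfsg.Agent.H951 Cfsg.Agent.H884.Cg Cfsg.Agent.H899.Pt Cfsg.Agent.H946.DK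

variable {F : Type*} [Field F] {V : Type*} [AddCommGroup V] [Module F V]

/-- adjoint operators -/
theorem adj {B : LinearMap.BilinForm F V} {a b : Module.End F V} (h : ∀ u v, B (a u) v = B u (b v)) (f : F[X]) :
    ∀ u v, B (aeval a f u) v = B u (aeval b f v) := by
  induction f using Polynomial.induction_on' with
  | add p q hp hq =>
    intro u v
    rw [map_add, map_add, LinearMap.add_apply, LinearMap.add_apply, map_add, LinearMap.add_apply, hp, hq, map_add]
  | monomial n c =>
    have hn : ∀ u v, B ((a ^ n) u) v = B u ((b ^ n) v) := by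
      induction n with
      | zero => intro u v; rfl
      | succ n ih =>
        intro u v
        rw [pow_succ', pow_succ, Module.End.mul_apply, Module.End.mul_apply, h, ih]
    intro u v
    rw [aeval_monomial, aeval_monomial, Module.End.mul_apply, Module.End.mul_apply, Module.algebraMap_end_apply,
      Module.algebraMap_end_apply, map_smul, map_smul, LinearMap.smul_apply, hn]

variable [Fintype F] [FiniteDimensional F V]

/-- isometries commuting with an irreducible isometry: the whole space -/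
theorem unit₀ (B : LinearMap.BilinForm F V) (hnd : ∀ u, u ≠ 0 → ∃ v, B u v ≠ 0) {y : Module.End F V} {m : ℕ}
    (hm : 0 < m) (hym : y ^ m = 1) (hB : ∀ u v, B (y u) (y v) = B u v) (hy : Irr y (⊤ : Submodule F V)) :
    ∃ j : ℕ, ∀ w : Module.End F V, Commute w y → (∀ u v, B (w u) (w v) = B u v) →
      w ^ (Fintype.card F ^ j + 1) = 1 := by
  have hnt : Nontrivial V := by
    obtain ⟨v, -, hv⟩ := (Submodule.ne_bot_iff _).1 hy.1
    exact ⟨⟨v, 0, hv⟩⟩
  have hQ : (X ^ m - 1 : F[X]) ≠ 0 := X_pow_sub_C_ne_zero hm 1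
  obtain ⟨P, hP, -, hPV⟩ := hy.exists_factor (X ^ m - 1) hQ (fun v _ => by
    rw [map_sub, map_pow, aeval_X, hym, map_one, sub_self, LinearMap.zero_apply])
  have hP0 : aeval y P = 0 := LinearMap.ext fun v => hPV v trivial
  have hPf : Fact (Irreducible P) := ⟨hP⟩
  have hfin : Module.Finite F (AdjoinRoot P) := (AdjoinRoot.powerBasis hP.ne_zero).finite
  have hfK : Finite (AdjoinRoot P) := Module.finite_of_finite F
  let A : AdjoinRoot P →ₐ[F] Module.End F V := { act hP0 with commutes' := fun c => act_of hP0 c }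
  have hA : ∀ f : F[X], A (AdjoinRoot.mk P f) = aeval y f := fun f => act_mk hP0 f
  have hAinj : Function.Injective A := (A : AdjoinRoot P →+* Module.End F V).injective
  -- the inverse
  set y' := y ^ (m - 1) with hy'
  have hyy' : y * y' = 1 := by rw [hy', ← pow_succ', Nat.sub_add_cancel hm, hym]
  have hy'y : y' * y = 1 := by rw [hy', ← pow_succ, Nat.sub_add_cancel hm, hym]
  have hadj' : ∀ u v, B (y' u) v = B u (y v) := by
    intro u v
    rw [← hB (y' u) v, ← Module.End.mul_apply, hyy', Module.End.one_apply]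
  have heq : ∀ X Y : V, (∀ v, B X v = B Y v) → X = Y := by
    intro X Y h
    by_contra hne
    obtain ⟨v, hv⟩ := hnd (X - Y) (sub_ne_zero.2 hne)
    apply hv
    rw [map_sub, LinearMap.sub_apply, h, sub_self]
  have hP' : aeval y' P = 0 := by
    refine LinearMap.ext fun u => heq _ _ fun v => ?_
    rw [adj hadj', hP0, LinearMap.zero_apply, LinearMap.zero_apply, map_zero, map_zero, LinearMap.zero_apply]
  set ξ := (AdjoinRoot.root P) ^ (m - 1) with hξ
  have hAξ : A ξ = y' := by
    rw [hξ, map_pow, ← AdjoinRoot.mk_X, hA, aeval_X]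
  have hPξ : aeval ξ P = 0 := by
    apply hAinj
    rw [← aeval_algHom_apply, hAξ, hP', map_zero]
  let σ : AdjoinRoot P →ₐ[F] AdjoinRoot P := AdjoinRoot.liftAlgHom P (Algebra.ofId F (AdjoinRoot P)) ξ hPξ
  have hσ : ∀ f : F[X], A (σ (AdjoinRoot.mk P f)) = aeval y' f := by
    intro f
    have h1 : σ (AdjoinRoot.mk P f) = aeval ξ f := rfl
    rw [h1, ← aeval_algHom_apply, hAξ]
  obtain ⟨⟨j, hj⟩, hjσ⟩ := (FiniteField.bijective_frobeniusAlgHom_pow F (AdjoinRoot P)).2 σ
  have hσj : ∀ a, σ a = a ^ (Fintype.card F ^ j) := by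
    intro a
    rw [← hjσ]
    simp only [AlgHom.coe_pow, FiniteField.coe_frobeniusAlgHom, pow_iterate]
  have hσs : Function.Surjective σ := Finite.injective_iff_surjective.1 (σ : AdjoinRoot P →+* AdjoinRoot P).injective
  refine ⟨j, fun w hwy hw => ?_⟩
  -- `w` is a polynomial in `y`
  obtain ⟨v₀, hv₀⟩ := exists_ne (0 : V)
  have hcyc : ∀ v : V, ∃ f : F[X], aeval y f v₀ = v := by
    intro v
    rw [← mem_cyc]
    rcases hy.2.2 (cyc y v₀) le_top (inv_cyc v₀) with h | h
    · exfalso
      apply hv₀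
      rw [← Submodule.mem_bot F, ← h]
      exact self_mem_cyc v₀
    · rw [h]; trivial
  obtain ⟨f, hf⟩ := hcyc (w v₀)
  have hwf : w = aeval y f := by
    refine LinearMap.ext fun v => ?_
    obtain ⟨g, rfl⟩ := hcyc v
    rw [aeval_comm hwy, ← hf, ← Module.End.mul_apply, ← Module.End.mul_apply, ← map_mul, ← map_mul, mul_comm]
  obtain ⟨b, hb⟩ := hσs (AdjoinRoot.mk P f)
  obtain ⟨g, rfl⟩ := AdjoinRoot.mk_surjective b
  have hwg : w = aeval y' g := by rw [← hσ, hb, hA, hwf]
  have h1 : aeval y g * aeval y f = 1 := by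
    refine LinearMap.ext fun u => heq _ _ fun v => ?_
    have hadj : ∀ u v, B (y u) v = B u (y' v) := by
      intro u v
      rw [← hB u (y' v), ← Module.End.mul_apply, hyy', Module.End.one_apply]
    rw [Module.End.mul_apply, adj hadj, ← hwf, ← hwg, hw, Module.End.one_apply]
  have h2 : AdjoinRoot.mk P g * AdjoinRoot.mk P f = 1 := by
    apply hAinj
    rw [map_mul, hA, hA, h1, map_one]
  have h3 : AdjoinRoot.mk P f * AdjoinRoot.mk P f ^ (Fintype.card F ^ j) = 1 := by
    rw [← hσj]
    conv_lhs => rw [← hb]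
    rw [← map_mul, hb, h2, map_one]
  rw [hwf, ← hA, ← map_pow, pow_succ, mul_comm, h3, map_one]

/-- powers of restrictions -/
theorem restrict_pow {y : Module.End F V} {Z : Submodule F V} (hZ : Inv y Z) (k : ℕ) (v : Z) :
    (((y.restrict hZ ^ k) v : Z) : V) = (y ^ k) v := by
  induction k generalizing v with
  | zero => rfl
  | succ k ih =>
    rw [pow_succ, pow_succ, Module.End.mul_apply, Module.End.mul_apply, ih]
    rfl

/-- **isometries commuting with an irreducible isometry** -/
theorem unit (B : LinearMap.BilinForm F V) {Z : Submodule F V} (hnd : ∀ u ∈ Z, u ≠ 0 → ∃ v ∈ Z, B u v ≠ 0)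
    {y : Module.End F V} {m : ℕ} (hm : 0 < m) (hym : y ^ m = 1) (hB : ∀ u v, B (y u) (y v) = B u v)
    (hy : Irr y Z) :
    ∃ j : ℕ, ∀ w : Module.End F V, Inv w Z → Commute w y → (∀ u v, B (w u) (w v) = B u v) →
      ∀ v ∈ Z, (w ^ (Fintype.card F ^ j + 1)) v = v := by
  have hyZ := hy.2.1
  let y₀ : Module.End F Z := y.restrict hyZ
  have hi : Irr y₀ (⊤ : Submodule F Z) := by
    refine ⟨?_, inv_top, ?_⟩
    · intro h
      apply hy.1
      rw [eq_bot_iff]
      intro v hv
      have h1 : (⟨v, hv⟩ : Z) ∈ (⊥ : Submodule F Z) := by rw [← h]; trivial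
      rw [Submodule.mem_bot] at h1
      rw [Submodule.mem_bot]
      exact congrArg Subtype.val h1
    · intro U _ hU
      have h1 : Inv y (U.map Z.subtype) := by
        rintro _ ⟨u, hu, rfl⟩
        exact ⟨y₀ u, hU u hu, rfl⟩
      rcases hy.2.2 (U.map Z.subtype) (Submodule.map_subtype_le Z U) h1 with h2 | h2
      · left
        rw [eq_bot_iff]
        intro u hu
        have h3 : (u : V) ∈ U.map Z.subtype := ⟨u, hu, rfl⟩
        rw [h2, Submodule.mem_bot] at h3
        rw [Submodule.mem_bot]
        exact Subtype.ext h3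
      · right
        rw [eq_top_iff]
        intro u _
        have h3 : (u : V) ∈ U.map Z.subtype := by rw [h2]; exact u.2
        obtain ⟨u', hu', hu2⟩ := h3
        have h4 : u' = u := Subtype.ext hu2
        rwa [← h4]
  obtain ⟨j, hj⟩ := unit₀ (B.domRestrict₁₂ Z Z) (y := y₀) (m := m) (fun u hu => by
      obtain ⟨v, hv, hv2⟩ := hnd u u.2 (fun h => hu (Subtype.ext h))
      exact ⟨⟨v, hv⟩, hv2⟩) hm
    (LinearMap.ext fun v => Subtype.ext (by
      rw [restrict_pow, hym]
      rfl)) (fun u v => hB u v) hi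
  refine ⟨j, fun w hwZ hwy hw v hv => ?_⟩
  have h1 := hj (w.restrict hwZ) (LinearMap.ext fun u => Subtype.ext (by
    show w (y u) = y (w u)
    exact LinearMap.congr_fun hwy.eq (u : V))) (fun u v => hw u v)
  have h2 := congrArg Subtype.val (LinearMap.congr_fun h1 ⟨v, hv⟩)
  rw [restrict_pow] at h2
  exact h2

end Cfsg.Agent.H462.Beta
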